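import Cfsg.Agent.W128.A

/-! Automorphisms of the Sylow 2-subgroup `W` of `S₈`, and the key lemma for `W` inside a group of sectional rank `≤ 4`. -/

set_option autoImplicit false

namespace Cfsg.Agent.W128
open Subgroup Cfsg.Agent.BG Cfsg.Agent.Gen2

variable (φ : MulAut W)

theorem fz : φ (k 15) = k 15 := (dZ _ fun g => by
  obtain ⟨g, rfl⟩ := φ.surjective g; rw [← map_mul, dz.1, map_mul]).resolve_left
    fun e => dz.2.1 (φ.injective (e.trans (map_one φ).symm))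

theorem f3 : φ (k 3) = k 3 ∨ φ (k 3) = k 12 :=
  ((d3' _ fun g => by
    obtain ⟨g, rfl⟩ := φ.surjective g
    exact (d3 g).imp (fun e => by rw [← map_mul, e, map_mul]) fun e => by
      rw [← map_mul, e, map_mul, map_mul, fz]).resolve_left
    fun e => dz.2.2.1 (φ.injective (e.trans (map_one φ).symm))).resolve_left
    fun e => dz.2.2.2.1 (φ.injective (e.trans (fz φ).symm))

theorem ne16 (V : Subgroup W) (h2 : ∀ v ∈ V, v * v = 1) (hn : ∀ g, ∀ v ∈ V, g * v * g⁻¹ ∈ V)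
    (hc : ∀ u ∈ V, ∀ v ∈ V, u * v = v * u) (c : #V = 16) : V = A ∨ V = B :=
  ((SubgroupClass.subset_union (H := V) (K := A) (L := B)).1 fun v hv =>
    dE v (h2 v hv) fun g => hc _ (hn g v hv) _ hv).imp
    (fun l => eq_of_le_of_card_ge l (by rw [c, cA])) fun l => eq_of_le_of_card_ge l (by rw [c, cB])

theorem mA : (∀ a ∈ A, φ a ∈ A) ∨ ∀ b ∈ B, φ⁻¹ b ∈ A ∧ ∀ a ∈ A, φ a ∈ B := by
  refine (ne16 (A.map φ.toMonoidHom) ?_ ?_ ?_ ((card_map_of_injective φ.injective).trans cA)).imp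
    (fun e a ha => e.le ⟨a, ha, rfl⟩) fun e b hb => ⟨?_, fun a ha => e.le ⟨a, ha, rfl⟩⟩
  · rintro _ ⟨a, ha, rfl⟩; rw [← map_mul, (dA a ha).1, map_one]
  · rintro g _ ⟨a, ha, rfl⟩
    obtain ⟨g, rfl⟩ := φ.surjective g
    exact ⟨_, (dA a ha).2.2 g, by simp⟩
  · rintro _ ⟨a, ha, rfl⟩ _ ⟨b, hb, rfl⟩; rw [← map_mul, (dA a ha).2.1 b hb, map_mul]
  · obtain ⟨a, ha, rfl⟩ := e.ge hb
    simpa using ha

theorem fJ (j : W) (h : J j) : J (φ j) := by
  obtain ⟨h, g, hg⟩ := h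
  exact ⟨by rw [← map_mul, h, fz], φ g, fun e => hg (φ.injective (by simpa using e))⟩

variable {S : Type*} [Group S] [Finite S] (hr : SectionalPRankLE 2 4 S) {f : W →* S} (hf : Function.Injective f) {x : S}
include hr hf

theorem key0 (R : ∀ w, f (φ w) = x * f w * x⁻¹) (hA : ∀ a ∈ A, φ a ∈ A) (h3 : φ (k 3) = k 3) (h2 : x * x ∈ f.range) :
    x ∈ f.range := by
  by_contra hx
  obtain ⟨p, hp⟩ := h2
  have h12 : φ (k 12) = k 12 := by rw [dz.2.2.2.2.1, map_mul, h3, fz]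
  have hY : ∀ c ∈ Y, φ c = c := fun c hc => by
    rcases (dY c hc).2.2.1 with rfl | rfl | rfl | rfl
    exacts [map_one φ, fz φ, h3, h12]
  obtain ⟨r1, r2, r3, r4, r5, r6, r7, s1, s2, s3, s4⟩ := dR
  obtain ⟨q1, q2, q3, q4⟩ := dQ (φ (k 1)) (hA _ dz.2.2.2.2.2.2.2.2.2.1) (φ (k 16)) (by rw [← map_mul, ← map_mul, r1, h3])
    (by rw [← map_mul, r2, map_one]) (φ (k 4)) (hA _ dz.2.2.2.2.2.2.2.2.2.2) (by rw [← map_mul, r3, map_mul]) (φ (k 32))
    (by rw [← map_mul, ← map_mul, r4, h12]) (by rw [← map_mul, r5, map_one]) (by rw [← map_mul, r6, map_mul])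
    (by rw [← map_mul, r7, map_mul])
  have : Y.Normal := ⟨fun c hc g => (dY c hc).2.2.2 g⟩
  have hF : ∀ d ∈ D, (φ d)⁻¹ * d ∈ Y := fun d hd => by
    have m : ∀ d, d ∈ ((QuotientGroup.mk' Y).comp φ.toMonoidHom).eqLocus (QuotientGroup.mk' Y) ↔ (φ d)⁻¹ * d ∈ Y :=
      fun d => QuotientGroup.eq
    obtain ⟨i, j, a, b, rfl⟩ := dG d hd
    exact (m _).1 (mul_mem (mul_mem (pow_mem (mul_mem ((m _).2 q1) ((m _).2 q2)) _) (pow_mem ((m _).2 q1) _))
      (mul_mem (pow_mem (mul_mem ((m _).2 q3) ((m _).2 q4)) _) (pow_mem ((m _).2 q3) _)))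
  have hp' : ∀ d ∈ D, p * d * p⁻¹ = d := fun d hd => by
    have e : φ d = d * ((φ d)⁻¹ * d)⁻¹ := by group
    have e' : φ (φ d) = d := by
      rw [e, map_mul, map_inv, hY _ (hF d hd), e, ← e, inv_eq_of_mul_eq_one_right (dY _ (hF d hd)).2.1]; group
    refine (hf ?_).trans e'
    rw [map_mul, map_mul, map_inv, hp, R, R]; group
  have pY := dC p (hp' _ s1) (hp' _ s2) (hp' _ s3) (hp' _ s4)
  have n : x ∈ N[D.map f] := mem_normalizer_fintype (by
    rintro _ ⟨d, hd, rfl⟩; exact ⟨φ d, (dD d hd _ (hF d hd)).1, R d⟩)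
  have a := sr_le hr (N := Y.map f) (H := D.map f ⊔ zpowers x) ((map_mono fun c hc => (dY c hc).1).trans le_sup_left)
    fun y hy => ?_
  · have b := card_mul_relIndex (le_sup_left : D.map f ≤ D.map f ⊔ zpowers x)
    have c : 1 < (D.map f).relIndex (D.map f ⊔ zpowers x) := one_lt_index_of_ne_top fun e =>
      hx (map_le_range _ _ (mem_subgroupOf.1 (e.ge (mem_top ⟨x, mem_sup_right (mem_zpowers x)⟩))))
    rw [card_map_of_injective hf, cY] at a
    rw [card_map_of_injective hf, cD] at b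
    omega
  obtain ⟨_, ⟨d, hd, rfl⟩, _, ⟨n, rfl⟩, rfl⟩ := (mem_sup_norml (zpowers_le.2 n)).1 hy
  obtain ⟨m, e⟩ := Int.even_or_odd' n
  have he : d * p ^ m ∈ D := mul_mem hd (zpow_mem (dY p pY).1 m)
  have e2 : x ^ (2 * m) = f (p ^ m) := by rw [zpow_mul, zpow_two, ← hp, map_zpow]
  rcases e with rfl | rfl
  · exact ⟨_, (dD _ he _ (by rw [inv_mul_cancel]; exact one_mem _)).2, by simp only [e2, map_mul]⟩
  · exact ⟨_, mul_mem (dD _ he _ (hF _ he)).2 pY, by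
      simp only [zpow_add_one, e2]; rw [map_mul, map_mul, R, hp, map_mul]; group⟩

theorem key1 (R : ∀ w, f (φ w) = x * f w * x⁻¹) (hA : ∀ a ∈ A, φ a ∈ A) (h2 : x * x ∈ f.range) : x ∈ f.range := by
  rcases f3 φ with h | h
  · exact key0 φ hr hf R hA h h2
  refine (mul_mem_cancel_left (⟨k 64, rfl⟩ : f (k 64) ∈ f.range)).1 (key0 (MulAut.conj (k 64) * φ) hr hf (x := f (k 64) * x)
    (fun w => by simp [R, mul_assoc]) (fun a ha => (dA _ (hA a ha)).2.2 _) (by simp [h, dz.2.2.2.2.2.1]) ?_)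
  convert mul_mem (⟨k 64 * φ (k 64), rfl⟩ : _ ∈ f.range) h2 using 1
  rw [map_mul, R]; group

theorem key (h2 : IsPGroup 2 S) (R : ∀ w, f (φ w) = x * f w * x⁻¹) (hA : ∀ a ∈ A, φ a ∈ A) : x ∈ f.range := by
  obtain ⟨n, hn⟩ := h2 x
  replace hn : x ^ 2 ^ n ∈ f.range := hn ▸ one_mem _
  induction n generalizing x φ with
  | zero => simpa using hn
  | succ n ih =>
    exact key1 φ hr hf R hA (ih (φ * φ) (fun w => by simp [R, mul_assoc]) (fun a ha => hA _ (hA a ha))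
      (by rwa [← pow_two, ← pow_mul, ← pow_succ']))

end Cfsg.Agent.W128
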